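import Mathlib
import Cfsg.Agent.Lib.CT.PairCount

set_option autoImplicit false

namespace Cfsg.Agent.Lib.CT.DefectZero

open Cfsg Cfsg.Agent.Lib.CT.Wedderburn Cfsg.Agent.Lib.CT.PairCount

universe u
variable {G : Type u} [Group G]

/-- Without characters of `p`-defect zero, no degree is divisible by the full power of `p`. -/
theorem not_pow_dvd_of_no_defect_zero [Finite G] {p : ℕ} (hp : p.Prime)
    (h : ¬ ∃ χ : IrrCharacter G,
      (charDegree (χ : G → ℂ)).factorization p = (Nat.card G).factorization p)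
    (χ : IrrCharacter G) : ¬ p ^ ((Nat.card G).factorization p) ∣ charDegree (χ : G → ℂ) := by
  intro hdvd
  apply h
  refine ⟨χ, le_antisymm ?_ ?_⟩
  · have hd := Cfsg.Agent.Lib.Helper80.Integrality.charDegree_dvd_card χ
    have := (Nat.factorization_le_iff_dvd (irr_charDegree_pos χ.2).ne' Nat.card_pos.ne').mpr hd
    exact this p
  · exact (hp.pow_dvd_iff_le_factorization (irr_charDegree_pos χ.2).ne').mp hdvd

/-- The pairs `(g, h)` with `g z g⁻¹ = h z h⁻¹`. -/
theorem card_pairs_conj_inv (z : G) :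
    Nat.card {r : G × G // r.1 * z * r.1⁻¹ * (r.2 * z⁻¹ * r.2⁻¹) = 1} =
      Nat.card G * Nat.card (Subgroup.centralizer ({z} : Set G)) := by
  rw [← Nat.card_prod]
  refine Nat.card_congr ⟨fun q => (q.1.1, ⟨q.1.1⁻¹ * q.1.2, ?_⟩),
    fun r => ⟨(r.1, r.1 * r.2.1), ?_⟩, ?_, ?_⟩
  · obtain ⟨⟨g, h⟩, hq⟩ := q
    simp only at hq ⊢
    rw [Subgroup.mem_centralizer_iff]
    intro y hy
    rw [Set.mem_singleton_iff] at hy
    subst hy
    have h2 : g * y * g⁻¹ = h * y * h⁻¹ := by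
      have h3 := eq_inv_of_mul_eq_one_left hq
      rw [h3]
      group
    calc y * (g⁻¹ * h) = g⁻¹ * (g * y * g⁻¹) * h := by group
      _ = g⁻¹ * (h * y * h⁻¹) * h := by rw [h2]
      _ = g⁻¹ * h * y := by group
  · obtain ⟨g, ⟨k, hk⟩⟩ := r
    simp only
    rw [Subgroup.mem_centralizer_iff] at hk
    have hk' := hk z (Set.mem_singleton z)
    calc g * z * g⁻¹ * (g * k * z⁻¹ * (g * k)⁻¹) = g * (z * k) * z⁻¹ * k⁻¹ * g⁻¹ := by group
      _ = g * (k * z) * z⁻¹ * k⁻¹ * g⁻¹ := by rw [hk']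
      _ = 1 := by group
  · intro q
    ext <;> simp
  · intro r
    ext <;> simp

/-- If the only products `g z g⁻¹ * h z⁻¹ h⁻¹` lying in `Q` are trivial, the pair count is
`|G| |C(z)|`. -/
theorem card_pairs_mem_of_forall (z : G) (Q : Subgroup G)
    (hQ : ∀ g h : G, g * z * g⁻¹ * (h * z⁻¹ * h⁻¹) ∈ Q → g * z * g⁻¹ * (h * z⁻¹ * h⁻¹) = 1) :
    Nat.card {r : G × G // r.1 * z * r.1⁻¹ * (r.2 * z⁻¹ * r.2⁻¹) ∈ Q} =
      Nat.card G * Nat.card (Subgroup.centralizer ({z} : Set G)) := by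
  rw [← card_pairs_conj_inv z]
  refine Nat.card_congr (Equiv.subtypeEquivRight fun r => ⟨fun h => hQ _ _ h, fun h => ?_⟩)
  rw [h]
  exact Subgroup.one_mem Q

/-- Main arithmetic consequence: if there is no character of `p`-defect zero and the only
products `g z g⁻¹ * h z⁻¹ h⁻¹` lying in a Sylow `p`-subgroup are trivial, then `p` divides the
order of the centralizer of `z`. -/
theorem dvd_card_centralizer_of_no_defect_zero [Finite G] {p : ℕ} [Fact p.Prime]
    (h : ¬ ∃ χ : IrrCharacter G,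
      (charDegree (χ : G → ℂ)).factorization p = (Nat.card G).factorization p)
    (hpG : p ∣ Nat.card G) (z : G) (P : Sylow p G)
    (hQ : ∀ g h : G, g * z * g⁻¹ * (h * z⁻¹ * h⁻¹) ∈ (P : Subgroup G) →
      g * z * g⁻¹ * (h * z⁻¹ * h⁻¹) = 1) :
    p ∣ Nat.card (Subgroup.centralizer ({z} : Set G)) := by
  have hp : p.Prime := Fact.out
  set s := (Nat.card G).factorization p with hs
  have hGpos : Nat.card G ≠ 0 := Nat.card_pos.ne'
  have hCpos : Nat.card (Subgroup.centralizer ({z} : Set G)) ≠ 0 := Nat.card_pos.ne'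
  have hs1 : 1 ≤ s := by
    have h1 : p ^ 1 ∣ Nat.card G := by rwa [pow_one]
    exact (hp.pow_dvd_iff_le_factorization hGpos).mp h1
  obtain ⟨e, he⟩ : ∃ e, s = e + 1 := ⟨s - 1, by omega⟩
  have he' : ∀ χ : IrrCharacter G, ¬ p ^ (e + 1) ∣ charDegree (χ : G → ℂ) := by
    intro χ
    rw [← he]
    exact not_pow_dvd_of_no_defect_zero hp h χ
  have hPcard : Nat.card (P : Subgroup G) = p ^ s := P.card_eq_multiplicity
  have hk : p ^ (s + s) ∣ Nat.card G * Nat.card (P : Subgroup G) := by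
    rw [hPcard, pow_add]
    exact Nat.mul_dvd_mul (Nat.ordProj_dvd _ _) dvd_rfl
  have hdvd := pow_dvd_pair_count hp z z⁻¹ (P : Subgroup G) e he' (s + s) hk
  rw [card_pairs_mem_of_forall z (P : Subgroup G) hQ] at hdvd
  have hne : p ^ e * (Nat.card G * Nat.card (Subgroup.centralizer ({z} : Set G))) ≠ 0 :=
    Nat.mul_ne_zero (pow_ne_zero _ hp.ne_zero) (Nat.mul_ne_zero hGpos hCpos)
  rw [hp.pow_dvd_iff_le_factorization hne, Nat.factorization_mul (pow_ne_zero _ hp.ne_zero)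
    (Nat.mul_ne_zero hGpos hCpos), Nat.factorization_mul hGpos hCpos] at hdvd
  simp only [Finsupp.coe_add, Pi.add_apply, hp.factorization_pow, Finsupp.single_eq_same,
    ← hs] at hdvd
  have h1 : 1 ≤ (Nat.card (Subgroup.centralizer ({z} : Set G))).factorization p := by omega
  have := (hp.pow_dvd_iff_le_factorization hCpos).mpr h1
  simpa using this

end Cfsg.Agent.Lib.CT.DefectZero
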