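import Mathlib
import Cfsg.Agent.Lib.CT.KR1
import Cfsg.Agent.Lib.Helper16.Transfer
import Cfsg.Agent.Lib.Helper16.Brauer
import Cfsg.Agent.Lib.Helper77.BPFus

/-!
# Transport of the local sums of `KR1` from a subgroup `N` to the ambient group

For `K ≤ N ≤ G` and a block `b` of `G`: the irreducible characters of `K` (viewed inside `N`)
whose block induces a block of `N` inducing `b` are those whose block induces `b`
(transitivity of block induction), provided block induction from `K` to `N` is always defined.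
-/

set_option autoImplicit false

namespace Cfsg.Agent.Lib.CT.KR2

open Cfsg Cfsg.Agent.Lib.CT.Wedderburn
  Cfsg.Agent.Lib.Helper75.BlockRank Cfsg.Agent.Lib.Helper75.Section
  Cfsg.Agent.Lib.Helper75.Section2
  Cfsg.Agent.Lib.Helper77.LocalRing Cfsg.Agent.Lib.CT.DefectZeroBlock
  Cfsg.Agent.Lib.Helper77.DefectClass Cfsg.Agent.Lib.CT.KR1
  Cfsg.Agent.Lib.Helper16.Transfer Cfsg.Agent.Lib.Helper77.BPTransport
  Cfsg.Agent.Lib.Helper77.BPFus
open scoped ComplexConjugate

universe u
variable {G : Type u} [Group G]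

/-- The sum of `⟨ψ°, ψ⟩` over the irreducible characters `ψ` of the subgroup `K` whose block
induces `b`. -/
noncomputable def locB [Finite G] (p : ℕ) (M : Ideal AlgInt) (b : Set (IrrCharacter G))
    (K : Subgroup G) : ℂ :=
  letI : Fintype K := Fintype.ofFinite _
  ∑ᶠ ψ ∈ {ψ : IrrCharacter K | IsInducedBlock M K (blockOf M (ψ : K → ℂ)) b},
    classInner (pRegularPart p (ψ : K → ℂ)) (ψ : K → ℂ)

/-- The irreducible characters of `N` lying in blocks of `N` that induce `b`. -/
def indSet (M : Ideal AlgInt) (N : Subgroup G) (b : Set (IrrCharacter G)) :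
    Set (IrrCharacter N) :=
  {ψ | ∃ β : Set (IrrCharacter N), ψ ∈ β ∧ IsInducedBlock M N β b}

theorem indSet_closed {M : Ideal AlgInt} (hMp : M.IsPrime) (N : Subgroup G)
    (b : Set (IrrCharacter G)) : Closed M (indSet M N b) := by
  rintro χ ⟨β, hχβ, hind⟩ ψ hψ
  refine ⟨β, ?_, hind⟩
  rw [eq_blockOf_of_mem hMp hind.1 hχβ]
  exact hψ

theorem classInner_pull {H K : Type u} [Group H] [Group K] [Fintype H] [Fintype K]
    (φ : H ≃* K) (f g : K → ℂ) :
    classInner (fun h => f (φ h)) (fun h => g (φ h)) = classInner f g := by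
  unfold classInner
  rw [Nat.card_congr φ.toEquiv]
  congr 1
  exact Fintype.sum_equiv φ.toEquiv _ _ (fun h => rfl)

/-- For a block `b`, the local sum of `KR1` is `locB`. -/
theorem locSum_eq_locB [Finite G] (p : ℕ) {M : Ideal AlgInt} (hMp : M.IsPrime)
    (b : Set (IrrCharacter G)) (hb : IsPBlock M b) (K : Subgroup G) :
    locSum p M b K = locB p M b K := by
  unfold locSum locB
  have hset : {ψ : IrrCharacter K | ∃ χ ∈ b, IsInducedBlock M K (blockOf M (ψ : K → ℂ))
      (blockOf M (χ : G → ℂ))} =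
      {ψ : IrrCharacter K | IsInducedBlock M K (blockOf M (ψ : K → ℂ)) b} := by
    ext ψ
    constructor
    · rintro ⟨χ, hχ, hind⟩
      show IsInducedBlock M K (blockOf M (ψ : K → ℂ)) b
      rw [eq_blockOf_of_mem hMp hb hχ]
      exact hind
    · intro hind
      obtain ⟨χ, hχ⟩ := Cfsg.Agent.Lib.CT.DefectZeroBlock.isPBlock_nonempty hMp hb
      refine ⟨χ, hχ, ?_⟩
      rw [← eq_blockOf_of_mem hMp hb hχ]
      exact hind
  rw [hset]

/-- **Transport.** -/
theorem transport [Finite G] (p : ℕ) [Fact p.Prime] (M : Ideal AlgInt) (hM : IsPModular p M)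
    (b : Set (IrrCharacter G)) (N K : Subgroup G) (hKN : K ≤ N)
    (hdef : ∀ b' : Set (IrrCharacter (K.subgroupOf N)), IsPBlock M b' →
      InducedBlockDefined M (K.subgroupOf N) b') :
    locSum (G := N) p M (indSet M N b) (K.subgroupOf N) = locB p M b K := by
  classical
  have hMp := isPrime_of_isPModular hM
  let _ : Fintype (K.subgroupOf N) := Fintype.ofFinite _
  let _ : Fintype K := Fintype.ofFinite _
  have := finite_irrCharacter (K.subgroupOf N)
  let _ : Fintype (IrrCharacter (K.subgroupOf N)) := Fintype.ofFinite _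
  have := finite_irrCharacter K
  let _ : Fintype (IrrCharacter K) := Fintype.ofFinite _
  rw [locSum_eq]
  unfold locB
  rw [finsum_mem_def, finsum_eq_sum_of_fintype]
  let E : IrrCharacter (K.subgroupOf N) ≃ IrrCharacter K :=
    ⟨pull (sIso K N hKN).symm, pull (sIso K N hKN),
      fun ψ' => pull_pull_symm (sIso K N hKN) ψ', fun ψ => pull_symm_pull (sIso K N hKN) ψ⟩
  refine Fintype.sum_equiv E _ _ (fun ψ' => ?_)
  rw [Set.indicator_apply]
  have hE : E ψ' = pull (sIso K N hKN).symm ψ' := rfl
  have hinner : classInner (pRegularPart p (pull (sIso K N hKN).symm ψ' : K → ℂ))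
      (pull (sIso K N hKN).symm ψ' : K → ℂ) =
      classInner (pRegularPart p (ψ' : K.subgroupOf N → ℂ)) (ψ' : K.subgroupOf N → ℂ) := by
    rw [pRegularPart_pull]
    exact classInner_pull (sIso K N hKN).symm _ _
  have hcond : (∃ χ ∈ indSet M N b, IsInducedBlock M (K.subgroupOf N)
        (blockOf M (ψ' : K.subgroupOf N → ℂ)) (blockOf M (χ : N → ℂ))) ↔
      IsInducedBlock M K (blockOf M (pull (sIso K N hKN).symm ψ' : K → ℂ)) b := by
    rw [blockOf_pull]
    constructor
    · rintro ⟨χ, ⟨β, hχβ, hβ⟩, hind⟩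
      have hβeq : β = blockOf M (χ : N → ℂ) := eq_blockOf_of_mem hMp hβ.1 hχβ
      rw [← hβeq] at hind
      exact isInducedBlock_trans hMp K N hKN _ β b hind hβ
    · intro hind
      obtain ⟨β₁, hβ₁⟩ := hdef (blockOf M (ψ' : K.subgroupOf N → ℂ)) (isPBlock_blockOf ψ')
      have h2 := isInducedBlock_of_trans hMp K N hKN _ β₁ b hβ₁ hind
      obtain ⟨χ, hχ⟩ := Cfsg.Agent.Lib.CT.DefectZeroBlock.isPBlock_nonempty hMp hβ₁.2.1
      refine ⟨χ, ⟨β₁, hχ, h2⟩, ?_⟩
      rw [← eq_blockOf_of_mem hMp hβ₁.2.1 hχ]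
      exact hβ₁
  by_cases hc : ∃ χ ∈ indSet M N b, IsInducedBlock M (K.subgroupOf N)
        (blockOf M (ψ' : K.subgroupOf N → ℂ)) (blockOf M (χ : N → ℂ))
  · rw [if_pos hc, if_pos (show E ψ' ∈ {ψ : IrrCharacter K |
      IsInducedBlock M K (blockOf M (ψ : K → ℂ)) b} from hcond.mp hc), hE, hinner]
  · rw [if_neg hc, if_neg (show ¬ E ψ' ∈ {ψ : IrrCharacter K |
      IsInducedBlock M K (blockOf M (ψ : K → ℂ)) b} from fun h => hc (hcond.mpr h))]

/-- **Transport for centralizers of `p`-elements.** -/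
theorem transport_centralizer [Finite G] (p : ℕ) [Fact p.Prime] (M : Ideal AlgInt)
    (hM : IsPModular p M) (b : Set (IrrCharacter G)) (N : Subgroup G) (y : N)
    (hy : ∃ k : ℕ, orderOf y = p ^ k) :
    (Nat.card (Subgroup.centralizer ({y} : Set N)) : ℂ) *
        locSum (G := N) p M (indSet M N b) (Subgroup.centralizer ({y} : Set N)) =
      (Nat.card (N ⊓ Subgroup.centralizer ({(y : G)} : Set G) : Subgroup G) : ℂ) *
        locB p M b (N ⊓ Subgroup.centralizer ({(y : G)} : Set G)) := by
  have hKN : N ⊓ Subgroup.centralizer ({(y : G)} : Set G) ≤ N := inf_le_left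
  have hC : Subgroup.centralizer ({y} : Set N) =
      (N ⊓ Subgroup.centralizer ({(y : G)} : Set G)).subgroupOf N := by
    ext c
    rw [Subgroup.mem_centralizer_iff, Subgroup.mem_subgroupOf, Subgroup.mem_inf,
      Subgroup.mem_centralizer_iff]
    constructor
    · intro h
      refine ⟨c.2, ?_⟩
      intro z hz
      rw [Set.mem_singleton_iff] at hz
      rw [hz]
      exact congrArg Subtype.val (h y (Set.mem_singleton y))
    · rintro ⟨_, h⟩ z hz
      rw [Set.mem_singleton_iff] at hz
      rw [hz]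
      exact Subtype.ext (h (y : G) (Set.mem_singleton _))
  have hdef : ∀ b' : Set (IrrCharacter (Subgroup.centralizer ({y} : Set N))), IsPBlock M b' →
      InducedBlockDefined M (Subgroup.centralizer ({y} : Set N)) b' := by
    intro b' hb'
    obtain ⟨k, hk⟩ := hy
    have hcz : Subgroup.centralizer ({y} : Set N) ≤
        Subgroup.centralizer ((Subgroup.zpowers y : Subgroup N) : Set N) := by
      intro c hc
      rw [Subgroup.mem_centralizer_iff] at hc ⊢
      intro h hh
      obtain ⟨n, rfl⟩ := Subgroup.mem_zpowers_iff.mp hh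
      have hyc : Commute y c := hc y (Set.mem_singleton y)
      exact (hyc.zpow_left n).eq
    refine Cfsg.Agent.Lib.Helper16.Brauer.inducedBlockDefined_of_local hM (Subgroup.zpowers y) _
      ?_ ?_ ?_ ?_ b' hb'
    · exact IsPGroup.of_card (n := k) (by rw [Nat.card_zpowers, hk])
    · rw [Subgroup.zpowers_le, Subgroup.mem_centralizer_iff]
      intro z hz
      rw [Set.mem_singleton_iff] at hz
      rw [hz]
    · exact Subgroup.centralizer_le (by
        rw [Set.singleton_subset_iff]
        exact Subgroup.mem_zpowers y)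
    · exact hcz.trans (Subgroup.centralizer_le_normalizer _)
  revert hdef
  rw [hC]
  intro hdef
  rw [transport p M hM b N _ hKN hdef]
  congr 1
  exact_mod_cast Nat.card_congr (sIso _ N hKN).toEquiv

end Cfsg.Agent.Lib.CT.KR2
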