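import Mathlib
import Cfsg.Agent.Lib.CT.KR2
import Cfsg.Agent.Lib.CT.KR3

/-!
# The Knörr–Robinson alternating sum for `k - l`

Assembly of the local count (`KR1.count`), the transport of local sums (`KR2`) and the
sign-reversing involution on normal chains (`KR3`).
-/

set_option autoImplicit false

namespace Cfsg.Agent.Lib.CT.KR4

open Cfsg Cfsg.Agent.Lib.CT.KR1 Cfsg.Agent.Lib.CT.KR2 Cfsg.Agent.Lib.CT.KR3

universe u

variable {G : Type u} [Group G]

/-- The weight attached to a subgroup: its order times the local sum of the block. -/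
noncomputable def wt [Finite G] (p : ℕ) (M : Ideal AlgInt) (b : Set (IrrCharacter G))
    (K : Subgroup G) : ℂ :=
  (Nat.card K : ℂ) * locB p M b K

theorem finsum_subgroup (N : Subgroup G) (P : G → Prop) (f : G → ℂ) :
    ∑ᶠ y ∈ {y : N | P (y : G)}, f (y : G) = ∑ᶠ y ∈ {y : G | y ∈ N ∧ P y}, f y := by
  have himg : {y : G | y ∈ N ∧ P y} = (Subtype.val : N → G) '' {y : N | P (y : G)} := by
    ext y
    constructor
    · rintro ⟨hyN, hyP⟩
      exact ⟨⟨y, hyN⟩, hyP, rfl⟩
    · rintro ⟨z, hz, rfl⟩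
      exact ⟨z.2, hz⟩
  rw [himg, finsum_mem_image (Subtype.val_injective.injOn)]

theorem finsum_mem_eq_sum {α : Type*} [Fintype α] (P : α → Prop) [DecidablePred P] (f : α → ℂ) :
    ∑ᶠ a ∈ {a | P a}, f a = ∑ a ∈ Finset.univ.filter P, f a := by
  rw [finsum_mem_eq_finite_toFinset_sum f (Set.toFinite _)]
  apply Finset.sum_congr _ (fun _ _ => rfl)
  ext a
  simp

theorem local_count [Finite G] (p : ℕ) [Fact p.Prime] (M : Ideal AlgInt) (hM : IsPModular p M)
    (b : Set (IrrCharacter G)) (N : Subgroup G) :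
    (Nat.card N : ℂ) * ((Nat.card (indSet M N b) : ℂ) - (blockRank p (indSet M N b) : ℂ)) =
      ∑ᶠ y ∈ {y : G | y ∈ N ∧ (y ≠ 1 ∧ ∃ k : ℕ, orderOf y = p ^ k)},
        wt p M b (N ⊓ Subgroup.centralizer ({y} : Set G)) := by
  have hMp := Helper77.LocalRing.isPrime_of_isPModular hM
  rw [count p M hM (indSet M N b) (indSet_closed hMp N b)]
  rw [← finsum_subgroup N (fun y => y ≠ 1 ∧ ∃ k : ℕ, orderOf y = p ^ k)
    (fun y => wt p M b (N ⊓ Subgroup.centralizer ({y} : Set G)))]
  have hset : {y : N | y ≠ 1 ∧ ∃ k : ℕ, orderOf y = p ^ k} =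
      {y : N | (y : G) ≠ 1 ∧ ∃ k : ℕ, orderOf (y : G) = p ^ k} := by
    ext y
    constructor
    · rintro ⟨h1, k, hk⟩
      refine ⟨fun h => h1 (Subtype.ext h), k, ?_⟩
      rw [Subgroup.orderOf_coe]
      exact hk
    · rintro ⟨h1, k, hk⟩
      refine ⟨fun h => h1 (by rw [h]; rfl), k, ?_⟩
      rw [← Subgroup.orderOf_coe]
      exact hk
  rw [hset]
  apply finsum_mem_congr rfl
  intro y hy
  obtain ⟨h1, k, hk⟩ := hy
  exact transport_centralizer p M hM b N y ⟨k, by rw [← Subgroup.orderOf_coe]; exact hk⟩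

open Classical in
theorem inner_sum [Finite G] [Fintype (Subgroup G)] (p : ℕ) [Fact p.Prime]
    (W : Subgroup G → ℂ) (y : G) (hy1 : y ≠ 1) (hyp : ∃ k : ℕ, orderOf y = p ^ k) :
    ∑ s ∈ Finset.univ.filter (fun s : Finset (Subgroup G) => s.Nonempty ∧ Good p s),
      (if y ∈ nrm s then
        (-1 : ℂ) ^ (s.card - 1) * W (nrm s ⊓ Subgroup.centralizer ({y} : Set G))
        else 0) = W (Subgroup.centralizer ({y} : Set G)) := by
  obtain ⟨T, hTdef⟩ : ∃ T : Finset (Finset (Subgroup G)),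
      T = Finset.univ.filter (fun s : Finset (Subgroup G) => Good p s ∧ y ∈ nrm s) := ⟨_, rfl⟩
  have hmemT : ∀ s, s ∈ T ↔ (Good p s ∧ y ∈ nrm s) := fun s => by
    rw [hTdef, Finset.mem_filter]
    exact ⟨fun h => h.2, fun h => ⟨Finset.mem_univ _, h⟩⟩
  have h0 : ∑ s ∈ T, (-1 : ℂ) ^ s.card * W (nrm s ⊓ Subgroup.centralizer ({y} : Set G)) = 0 := by
    refine Finset.sum_involution (fun s _ => tau y s) ?_ ?_ ?_ ?_
    · intro s hs
      have hs' := (hmemT s).mp hs
      rw [card_tau, nrm_tau_inf hs'.1 hy1]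
      ring
    · intro s hs _
      exact tau_ne
    · intro s hs
      have hs' := (hmemT s).mp hs
      exact (hmemT _).mpr ⟨good_tau hs'.1 hy1 hyp hs'.2, mem_nrm_tau hs'.1 hs'.2⟩
    · intro s hs
      have hs' := (hmemT s).mp hs
      exact tau_tau hs'.1 hy1
  have hempty : (∅ : Finset (Subgroup G)) ∈ T := by
    rw [hmemT]
    refine ⟨⟨fun Q hQ => absurd hQ (Finset.notMem_empty Q),
      fun Q hQ => absurd hQ (Finset.notMem_empty Q),
      fun h => absurd h Finset.not_nonempty_empty⟩, ?_⟩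
    rw [mem_nrm]
    intro Q hQ
    exact absurd hQ (Finset.notMem_empty Q)
  have hsplit := Finset.add_sum_erase T
    (fun s => (-1 : ℂ) ^ s.card * W (nrm s ⊓ Subgroup.centralizer ({y} : Set G))) hempty
  rw [h0] at hsplit
  have hnrm0 : nrm (∅ : Finset (Subgroup G)) = ⊤ := by
    rw [eq_top_iff]
    intro g _
    rw [mem_nrm]
    intro Q hQ
    exact absurd hQ (Finset.notMem_empty Q)
  simp only [Finset.card_empty, pow_zero, one_mul, hnrm0, top_inf_eq] at hsplit
  rw [← Finset.sum_filter]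
  have hset : (Finset.univ.filter (fun s : Finset (Subgroup G) => s.Nonempty ∧ Good p s)).filter
      (fun s => y ∈ nrm s) = T.erase ∅ := by
    ext s
    rw [Finset.mem_filter, Finset.mem_filter, Finset.mem_erase, hmemT,
      Finset.nonempty_iff_ne_empty]
    constructor
    · rintro ⟨⟨_, h1, h2⟩, h3⟩
      exact ⟨h1, h2, h3⟩
    · rintro ⟨h1, h2, h3⟩
      exact ⟨⟨Finset.mem_univ _, h1, h2⟩, h3⟩
  rw [hset]
  have hterm : ∀ s ∈ T.erase ∅,
      (-1 : ℂ) ^ (s.card - 1) * W (nrm s ⊓ Subgroup.centralizer ({y} : Set G)) =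
        - ((-1 : ℂ) ^ s.card * W (nrm s ⊓ Subgroup.centralizer ({y} : Set G))) := by
    intro s hs
    have hne : s ≠ ∅ := (Finset.mem_erase.mp hs).1
    obtain ⟨n, hn⟩ : ∃ n, s.card = n + 1 :=
      Nat.exists_eq_succ_of_ne_zero (fun h => hne (Finset.card_eq_zero.mp h))
    rw [hn, Nat.add_sub_cancel, pow_succ]
    ring
  rw [Finset.sum_congr rfl hterm, Finset.sum_neg_distrib]
  linear_combination -hsplit

open Classical in
/-- **Knörr–Robinson**: `|G| (k(b) - l(b))` as an alternating sum over normal chains. -/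
theorem main [Finite G] (p : ℕ) [Fact p.Prime] (M : Ideal AlgInt) (hM : IsPModular p M)
    (b : Set (IrrCharacter G)) (hb : IsPBlock M b) :
    (Nat.card G : ℂ) * ((Nat.card b : ℂ) - (blockRank p b : ℂ)) =
      ∑ᶠ s ∈ {s : Finset (Subgroup G) | s.Nonempty ∧ Good p s},
        (-1 : ℂ) ^ (s.card - 1) * ((Nat.card (nrm s) : ℂ) *
          ((Nat.card (indSet M (nrm s) b) : ℂ) -
            (blockRank p (indSet M (nrm s) b) : ℂ))) := by
  have hMp := Helper77.LocalRing.isPrime_of_isPModular hM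
  let _ : Fintype G := Fintype.ofFinite G
  let _ : Fintype (Subgroup G) := Fintype.ofFinite _
  have hclosed : Closed M b := fun χ hχ => by
    rw [← DefectZeroBlock.eq_blockOf_of_mem hMp hb hχ]
  rw [count p M hM b hclosed]
  rw [finsum_mem_eq_sum (fun y : G => y ≠ 1 ∧ ∃ k : ℕ, orderOf y = p ^ k)]
  rw [finsum_mem_eq_sum (fun s : Finset (Subgroup G) => s.Nonempty ∧ Good p s)]
  have hR : ∀ s : Finset (Subgroup G),
      (-1 : ℂ) ^ (s.card - 1) * ((Nat.card (nrm s) : ℂ) *
          ((Nat.card (indSet M (nrm s) b) : ℂ) -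
            (blockRank p (indSet M (nrm s) b) : ℂ))) =
        ∑ y ∈ Finset.univ.filter (fun y : G => y ≠ 1 ∧ ∃ k : ℕ, orderOf y = p ^ k),
          (if y ∈ nrm s then
            (-1 : ℂ) ^ (s.card - 1) * wt p M b (nrm s ⊓ Subgroup.centralizer ({y} : Set G))
            else 0) := by
    intro s
    rw [local_count p M hM b (nrm s),
      finsum_mem_eq_sum (fun y : G => y ∈ nrm s ∧ (y ≠ 1 ∧ ∃ k : ℕ, orderOf y = p ^ k)),
      ← Finset.sum_filter, Finset.mul_sum]
    apply Finset.sum_congr _ (fun _ _ => rfl)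
    ext y
    simp only [Finset.mem_filter, Finset.mem_univ, true_and]
    tauto
  rw [Finset.sum_congr rfl (fun s _ => hR s), Finset.sum_comm]
  apply Finset.sum_congr rfl
  intro y hy
  rw [Finset.mem_filter] at hy
  rw [inner_sum p (wt p M b) y hy.2.1 hy.2.2, locSum_eq_locB p hMp b hb]
  rfl

end Cfsg.Agent.Lib.CT.KR4
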