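import Cfsg.Agent.Lib.Helper16.MaxPair
import Cfsg.Agent.Lib.Helper75.Section2
import Cfsg.Agent.S0973

/-!
# From a block of `D C_G(D)` to a maximal Brauer pair

Let `D` be a defect group of the block `B` and `b` a block of `L = D C_G(D)` inducing `B`.

* `exists_maximal_pair_of_block`: there is a block `e` of `C_G(D)` such that `(D, e)` is a maximal
  Brauer pair of `B` and `e`, `b` have the same idempotent.
* `stab_eq`: the stabilizer of `b` in `N_G(D)` (in the character formulation) is the stabilizer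
  of the pair `(D, e)`.
-/

set_option autoImplicit false

namespace Cfsg.Agent.Lib.CT.MajBridge

open Cfsg Cfsg.Agent.Lib.Helper77.LocalRing Cfsg.Agent.Lib.Helper77.CentralChar
  Cfsg.Agent.Lib.Helper77.ClassSum Cfsg.Agent.Lib.Helper77.BlockIdem
  Cfsg.Agent.Lib.CT.Wedderburn Cfsg.Agent.Lib.Helper16.ZR
  Cfsg.Agent.Lib.Helper16.MinMax Cfsg.Agent.Lib.Helper16.Normal
  Cfsg.Agent.Lib.Helper16.Fong Cfsg.Agent.Lib.Helper16.Defect
  Cfsg.Agent.Lib.Helper16.Transfer Cfsg.Agent.Lib.Helper16.Fong2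
  Cfsg.Agent.Lib.Helper16.ExtFirst Cfsg.Agent.Lib.Helper16.ExtFirst2
  Cfsg.Agent.Lib.Helper77.BPTransport Cfsg.Agent.Lib.Helper77.BPStab
  Cfsg.Agent.Lib.Helper77.BPConj Cfsg.Agent.Lib.Helper77.BPBasic
  Cfsg.Agent.Lib.Helper16.MaxPair Cfsg.Agent.Lib.Helper16.BPLocal
  Cfsg.Agent.Lib.Helper77.BPEquiv Cfsg.Agent.Lib.Helper77.BPSub

universe u
variable {G : Type u} [Group G] {M : Ideal AlgInt}

/-- A block of `D C_G(D)` inducing a block with defect group `D` has the idempotent of a block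
`e` of `C_G(D)` with `(D, e)` a maximal Brauer pair. -/
theorem exists_maximal_pair_of_block [Finite G] (p : ℕ) [Fact p.Prime] (hM : IsPModular p M)
    (B : Set (IrrCharacter G)) (hB : IsPBlock M B) (D : Subgroup G)
    (hD : IsDefectGroup p M B D)
    (b : Set (IrrCharacter ↥(D ⊔ Subgroup.centralizer (D : Set G))))
    (hind : IsInducedBlock M (D ⊔ Subgroup.centralizer (D : Set G)) b B) :
    ∃ e : Set (IrrCharacter (Subgroup.centralizer (D : Set G))),
      IsMaximalBrauerPair p M B D e ∧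
      ext (D ⊔ Subgroup.centralizer (D : Set G)) (blockIdem b)
        = ext (Subgroup.centralizer (D : Set G)) (blockIdem e) := by
  classical
  have hMp := isPrime_of_isPModular hM
  obtain ⟨e₀, hmax₀⟩ := exists_maximal_pair hM B hB D hD
  have hQ : IsPGroup p D := hmax₀.1.1.1
  have he₀ : IsPBlock M e₀ := hmax₀.1.1.2
  have hZ := isDefectGroup_of_maximal_self hM hmax₀
  obtain ⟨b₀, hb₀, hext₀, hdef, hind'⟩ := sup_block p hM D hQ e₀ he₀ hZ
  have hQL : D ≤ D ⊔ Subgroup.centralizer (D : Set G) := le_sup_left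
  have hCL : Subgroup.centralizer (D : Set G) ≤ D ⊔ Subgroup.centralizer (D : Set G) :=
    le_sup_right
  have hLN : D ⊔ Subgroup.centralizer (D : Set G) ≤ Subgroup.normalizer (D : Set G) :=
    sup_centralizer_le_normalizer D
  obtain ⟨B', hindL⟩ := Cfsg.Agent.Lib.Helper16.Brauer.inducedBlockDefined_of_local hM D _ hQ hQL
    hCL hLN b₀ hb₀
  have hindC : IsInducedBlock M (Subgroup.centralizer (D : Set G)) e₀ B' := by
    have h := isInducedBlock_trans hMp _ _ hCL _ b₀ B' hind' hindL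
    rwa [pull_symm_image_pull_image] at h
  have hindC' : IsInducedBlock M (Subgroup.centralizer (D : Set G)) e₀ B :=
    (Cfsg.Agent.Lib.Helper77.BPInd.isBrauerPairOf_iff_isInducedBlock hM D hQ e₀ B).mp hmax₀.1
  have hBB' : B' = B :=
    Cfsg.Agent.Lib.Helper75.Section2.induced_unique hMp _ e₀ B' B hindC hindC'
  rw [hBB'] at hindL
  obtain ⟨n, hnN, hn⟩ := (Cfsg.Agent.S0973.result p M hM B hB D hD).2 b₀ b hindL hind
  have hmN : n⁻¹ ∈ Subgroup.normalizer (D : Set G) := inv_mem hnN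
  have hmL := normalizer_le_normalizer_sup D hmN
  have hmC := normalizer_le_normalizer_centralizer D hmN
  have hsub : conjB (D ⊔ Subgroup.centralizer (D : Set G)) n⁻¹ hmL b₀ ⊆ b := by
    rintro ψ ⟨θ, hθ, rfl⟩
    obtain ⟨θ', hθ', hθeq⟩ := hn θ hθ
    have heq : pull (normConj (D ⊔ Subgroup.centralizer (D : Set G)) n⁻¹ hmL) θ = θ' := by
      apply Subtype.ext
      funext x
      have hx : n * (x : G) * n⁻¹ ∈ D ⊔ Subgroup.centralizer (D : Set G) := by
        have h1 := (normConj (D ⊔ Subgroup.centralizer (D : Set G)) n⁻¹ hmL x).2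
        rw [coe_normConj, inv_inv] at h1
        exact h1
      rw [hθeq x hx, pull_apply]
      refine congrArg _ (Subtype.ext ?_)
      rw [coe_normConj, inv_inv]
    rw [heq]
    exact hθ'
  have hbeq : conjB (D ⊔ Subgroup.centralizer (D : Set G)) n⁻¹ hmL b₀ = b := by
    have hblk : IsPBlock M (conjB (D ⊔ Subgroup.centralizer (D : Set G)) n⁻¹ hmL b₀) :=
      isPBlock_conjB _ _ _ hb₀
    obtain ⟨ψ, hψ⟩ := isPBlock_nonempty hMp hblk
    rw [isPBlock_eq_blockOf hMp hblk hψ, isPBlock_eq_blockOf hMp hind.1 (hsub hψ)]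
  refine ⟨conjB (Subgroup.centralizer (D : Set G)) n⁻¹ hmC e₀, ?_, ?_⟩
  · have hpair := isBrauerPairOf_conj B D n⁻¹ hmax₀.1
    have key : ∀ a : BrauerPairIdx G,
        a = ⟨D, conjB (Subgroup.centralizer (D : Set G)) n⁻¹ hmC e₀⟩ →
        IsBrauerPairOf p M B a.1 a.2 →
        IsBrauerPairOf p M B D (conjB (Subgroup.centralizer (D : Set G)) n⁻¹ hmC e₀) := by
      rintro _ rfl h
      exact h
    exact isMaximal_of_isDefectGroup hM (key (cjp n⁻¹ ⟨D, e₀⟩) (cjp_eq_conjB hmN) hpair) hD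
  · rw [← hbeq, ← conjA_ext_blockIdem _ n⁻¹ hmL b₀, hext₀, conjA_ext_blockIdem _ n⁻¹ hmC e₀]

/-- The stabilizer of `b` in the character formulation is the stabilizer of the pair. -/
theorem stab_eq [Finite G] (D : Subgroup G)
    (e : Set (IrrCharacter (Subgroup.centralizer (D : Set G))))
    (b : Set (IrrCharacter ↥(D ⊔ Subgroup.centralizer (D : Set G))))
    (hext : ext (D ⊔ Subgroup.centralizer (D : Set G)) (blockIdem b)
      = ext (Subgroup.centralizer (D : Set G)) (blockIdem e))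
    (T : Subgroup G)
    (hT : ∀ g : G, g ∈ T ↔ (g ∈ Subgroup.normalizer (D : Set G) ∧
      ∀ θ ∈ b, ∀ θ' : IrrCharacter ↥(D ⊔ Subgroup.centralizer (D : Set G)),
        (∀ h h' : ↥(D ⊔ Subgroup.centralizer (D : Set G)), (h' : G) = g * h * g⁻¹ →
          (θ' : ↥(D ⊔ Subgroup.centralizer (D : Set G)) → ℂ) h'
            = (θ : ↥(D ⊔ Subgroup.centralizer (D : Set G)) → ℂ) h) → θ' ∈ b)) :
    T = Cfsg.Agent.Lib.Helper77.BPFix.stab D e := by
  ext g
  rw [hT, Cfsg.Agent.Lib.Helper77.BPFix.mem_stab]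
  constructor
  · rintro ⟨hx, hxs⟩
    exact ⟨hx, (stab_iff D e b hext g hx).mp hxs⟩
  · rintro ⟨hx, hxs⟩
    exact ⟨hx, (stab_iff D e b hext g hx).mpr hxs⟩

end Cfsg.Agent.Lib.CT.MajBridge
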